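import Cfsg.Agent.H35.GlaubermanNPC
import Cfsg.Agent.H23.MinimalStable

/-!
The Glauberman–Thompson criterion for an axiomatically given family of abelian subgroups: the group statement.
-/
set_option autoImplicit false

namespace Cfsg.Agent.H95

open Subgroup
open scoped commutatorElement

universe u

/-- The intersection of the members of `𝒜` contained in `Q`. -/
def famInf {G : Type*} [Group G] (𝒜 : Set (Subgroup G)) (Q : Subgroup G) : Subgroup G :=
  ⨅ A ∈ {A : Subgroup G | A ∈ 𝒜 ∧ A ≤ Q}, A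

theorem mem_famInf {G : Type*} [Group G] {𝒜 : Set (Subgroup G)} {Q : Subgroup G} {x : G} :
    x ∈ famInf 𝒜 Q ↔ ∀ A ∈ 𝒜, A ≤ Q → x ∈ A := by
  simp [famInf, Subgroup.mem_iInf]

/-- The hypotheses on the family inside a group with a given Sylow subgroup. -/
structure AxFamily {G : Type u} [Group G] (T : Subgroup G) (𝒜 : Set (Subgroup G)) : Prop where
  /-- members are abelian subgroups of `T` -/
  mem : ∀ A ∈ 𝒜, A ≤ T ∧ IsMulCommutative ↥A
  /-- the family is not empty -/
  nonempty : 𝒜.Nonempty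
  /-- invariance -/
  inv : ∀ Q : Subgroup G, Q ≤ T → (∃ A ∈ 𝒜, A ≤ Q) → ∀ g ∈ normalizer (Q : Set G),
    ∀ x ∈ famInf 𝒜 Q, g * x * g⁻¹ ∈ famInf 𝒜 Q
  /-- replacement -/
  repl : ∀ B : Subgroup G, B ≤ T → ⁅⁅B, B⁆, B⁆ = ⊥ → (∃ A ∈ 𝒜, ⁅B, B⁆ ≤ A ∧ ¬ B ≤ A) →
    ∃ A ∈ 𝒜, ⁅B, B⁆ ≤ A ∧ ¬ B ≤ A ∧ B ≤ normalizer (A : Set G)

variable {G : Type u} [Group G] {p : ℕ}

theorem AxFamily.normalizer_le {T : Subgroup G} {𝒜 : Set (Subgroup G)} (h : AxFamily T 𝒜) {Q : Subgroup G}
    (hQ : Q ≤ T) (hA : ∃ A ∈ 𝒜, A ≤ Q) :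
    normalizer (Q : Set G) ≤ normalizer (famInf 𝒜 Q : Set G) := by
  intro g hg
  refine mem_normalizer_iff.2 fun x => ⟨h.inv Q hQ hA g hg x, fun hx => ?_⟩
  simpa [mul_assoc] using h.inv Q hQ hA g⁻¹ (inv_mem hg) _ hx

theorem AxFamily.famInf_le {T : Subgroup G} {𝒜 : Set (Subgroup G)} (h : AxFamily T 𝒜) : famInf 𝒜 T ≤ T := by
  obtain ⟨A, hA⟩ := h.nonempty
  exact fun x hx => (h.mem A hA).1 (mem_famInf.1 hx A hA (h.mem A hA).1)

variable [Finite G] [Fact p.Prime]

/-- The intersection of the family meets every normal `p`-subgroup in a normal subgroup when the action on normal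
`p`-subgroups is `p`-stable. -/
theorem AxFamily.inf_normal (S : Sylow p G) {𝒜 : Set (Subgroup G)} (h : AxFamily (S : Subgroup G) 𝒜)
    (hst : ∀ (V : Subgroup G) [V.Normal], IsPGroup p V → Cfsg.IsPStableOn p V)
    (B : Subgroup G) [hBn : B.Normal] (hB : IsPGroup p B) :
    (B ⊓ famInf 𝒜 (S : Subgroup G)).Normal := by
  set Z := famInf 𝒜 (S : Subgroup G) with hZ
  have hZA : ∀ A ∈ 𝒜, Z ≤ A := fun A hA x hx => mem_famInf.1 hx A hA (h.mem A hA).1
  have hex : ∃ A ∈ 𝒜, A ≤ (S : Subgroup G) := by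
    obtain ⟨A, hA⟩ := h.nonempty
    exact ⟨A, hA, (h.mem A hA).1⟩
  have hSZ : (S : Subgroup G) ≤ normalizer (Z : Set G) :=
    le_normalizer.trans (h.normalizer_le le_rfl hex)
  induction hcard : Nat.card B using Nat.strong_induction_on generalizing B with
  | _ k ih =>
  subst hcard
  by_cases hB1 : normalClosure ((B ⊓ Z : Subgroup G) : Set G) ≠ B
  · set B1 := normalClosure ((B ⊓ Z : Subgroup G) : Set G) with hB1def
    have hle : B1 ≤ B := normalClosure_le_normal inf_le_left
    have hlt : Nat.card B1 < Nat.card B :=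
      lt_of_le_of_ne (card_le_of_le hle) fun e => hB1 (eq_of_le_of_card_ge hle e.ge)
    have h1 := ih _ hlt B1 (hB.to_le hle) rfl
    have : B1 ⊓ Z = B ⊓ Z :=
      le_antisymm (inf_le_inf_right _ hle) (le_inf subset_normalClosure inf_le_right)
    rwa [this] at h1
  push Not at hB1
  by_cases hBbot : B = ⊥
  · subst hBbot; rw [bot_inf_eq]; infer_instance
  have hBS : B ≤ S := hB.le_sylow_of_normal S
  have hClt : ⁅B, B⁆ < B := by
    have : Nontrivial B := nontrivial_iff_ne_bot B |>.2 hBbot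
    have : Group.IsNilpotent B := hB.isNilpotent
    refine lt_of_le_of_ne (commutator_le_self _) fun e => ?_
    have hc : commutator B = ⊤ := by
      apply map_injective B.subtype_injective
      rw [commutator_def, map_commutator, ← MonoidHom.range_eq_map, range_subtype, e]
    have hsol : Group.IsSolvable B := inferInstance
    exact (Group.IsSolvable.commutator_lt_top_of_nontrivial B).ne hc
  have hQn : (⁅B, B⁆ ⊓ Z).Normal := ih _
    ((card_le_of_le hClt.le).lt_of_ne fun e => hClt.ne (eq_of_le_of_card_ge hClt.le e.ge)) _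
    (hB.to_le hClt.le) rfl
  set Q := ⁅B, B⁆ ⊓ Z with hQ
  have hCZ : ⁅B, B⁆ ≤ Z := by
    have hgen : B ⊓ Z ≤ (centralizer ((B.map (QuotientGroup.mk' Q) : Subgroup (G ⧸ Q)) : Set (G ⧸ Q))).comap
        (QuotientGroup.mk' Q) := by
      intro z hz
      rw [mem_comap, mem_centralizer_iff]
      rintro _ ⟨y, hy, rfl⟩
      rw [← map_mul, ← map_mul, QuotientGroup.mk'_apply, QuotientGroup.mk'_apply, QuotientGroup.eq]
      have h1 : ⁅z⁻¹, y⁻¹⁆ ∈ ⁅B, B⁆ := commutator_mem_commutator (inv_mem hz.1) (inv_mem hy)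
      have h2 : ⁅z⁻¹, y⁻¹⁆ ∈ Z := by
        have := mul_mem (inv_mem (show z ∈ Z from hz.2)) ((hSZ (hBS (inv_mem hy)) z).1 hz.2)
        simpa [commutatorElement_def, mul_assoc] using this
      have h3 := (show ⁅z⁻¹, y⁻¹⁆ ∈ Q from ⟨h1, h2⟩)
      simpa [commutatorElement_def, mul_assoc] using h3
    have hle : B ≤ (centralizer ((B.map (QuotientGroup.mk' Q) : Subgroup (G ⧸ Q)) : Set (G ⧸ Q))).comap
        (QuotientGroup.mk' Q) := hB1.ge.trans (normalClosure_le_normal hgen)
    refine le_trans ?_ (inf_le_right : Q ≤ Z)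
    refine commutator_le.2 fun x hx y hy => ?_
    have h1 := mem_centralizer_iff.1 (mem_comap.1 (hle hx)) _ (mem_map_of_mem _ hy)
    rw [← QuotientGroup.eq_one_iff, ← QuotientGroup.mk'_apply, map_commutatorElement,
      commutatorElement_eq_one_iff_mul_comm]
    exact h1.symm
  -- `B` has class at most two
  have hclass : ⁅⁅B, B⁆, B⁆ = ⊥ := by
    obtain ⟨A, hA⟩ := h.nonempty
    haveI : (centralizer ((⁅B, B⁆ : Subgroup G) : Set G)).Normal := Subgroup.normal_centralizer
    have h1 : B ≤ centralizer ((⁅B, B⁆ : Subgroup G) : Set G) := hB1.ge.trans (normalClosure_le_normal fun z hz =>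
      mem_centralizer_iff.2 fun y hy =>
        H35.commute_of_mem_isMulCommutative (h.mem A hA).2 (hZA A hA (hCZ hy)) (hZA A hA hz.2))
    rw [commutator_eq_bot_iff_le_centralizer]
    intro x hx
    exact mem_centralizer_iff.2 fun y hy => (mem_centralizer_iff.1 (h1 hy) x hx).symm
  set L := (normalizer ((B ⊓ Z : Subgroup G) : Set G)).normalCore with hL
  have hLle : L ≤ normalizer ((B ⊓ Z : Subgroup G) : Set G) := normalCore_le _
  have hSBZ : (S : Subgroup G) ≤ normalizer ((B ⊓ Z : Subgroup G) : Set G) := by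
    intro g hg
    exact mem_normalizer_iff.2 fun z => and_congr
      ⟨fun hz => hBn.conj_mem z hz g, fun hz => by simpa [mul_assoc] using hBn.conj_mem _ hz g⁻¹⟩
      (hSZ hg z)
  by_cases hall : ∀ A ∈ 𝒜, A ≤ L
  · have heq : famInf 𝒜 ((S : Subgroup G) ⊓ L) = Z := le_antisymm
      (fun x hx => mem_famInf.2 fun A hA hAS => mem_famInf.1 hx A hA (le_inf hAS (hall A hA)))
      (fun x hx => mem_famInf.2 fun A hA hAS => mem_famInf.1 hx A hA (hAS.trans inf_le_left))
    have hn := h.normalizer_le (Q := (S : Subgroup G) ⊓ L) inf_le_left (by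
      obtain ⟨A, hA⟩ := h.nonempty
      exact ⟨A, hA, le_inf (h.mem A hA).1 (hall A hA)⟩)
    rw [heq] at hn
    rw [← normalizer_eq_top_iff, eq_top_iff, ← H35.sup_normalizer_sylow_inf S L]
    refine sup_le hLle fun g hg => mem_normalizer_iff.2 fun z => and_congr
      ⟨fun hz => hBn.conj_mem z hz g, fun hz => by simpa [mul_assoc] using hBn.conj_mem _ hz g⁻¹⟩
      (hn hg z)
  push Not at hall
  -- a member normalized by `B` lies in `L`
  have hnone : ∀ A ∈ 𝒜, B ≤ normalizer (A : Set G) → A ≤ L := by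
    intro A hA hBA a ha
    have hq : ⁅⁅B, zpowers a⁆, zpowers a⁆ = ⊥ := by
      have h1 : ⁅B, A⁆ ≤ A := commutator_le.2 fun x hx y hy => by
        have := mul_mem ((hBA hx y).1 hy) (inv_mem hy)
        simpa [commutatorElement_def] using this
      have hza : zpowers a ≤ A := zpowers_le.2 ha
      refine le_bot_iff.1 (le_trans (commutator_mono ((commutator_mono le_rfl hza).trans h1) hza) ?_)
      exact (commutator_eq_bot_iff_le_centralizer.2 fun x hx => mem_centralizer_iff.2 fun y hy =>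
        H35.commute_of_mem_isMulCommutative (h.mem A hA).2 hy hx).le
    have hmem := hst B hB a hq
    set q := QuotientGroup.mk' (centralizer (B : Set G))
    set K := (Cfsg.pCore p (G ⧸ centralizer (B : Set G))).comap q with hK
    have hcen : centralizer (B : Set G) ≤ normalizer ((B ⊓ Z : Subgroup G) : Set G) :=
      (centralizer_le (inf_le_left : B ⊓ Z ≤ B)).trans (centralizer_le_normalizer _)
    have hKle : K ≤ normalizer ((B ⊓ Z : Subgroup G) : Set G) := by
      have hq : Function.Surjective q := QuotientGroup.mk'_surjective _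
      have h1 : Cfsg.pCore p (G ⧸ centralizer (B : Set G)) ≤ (S : Subgroup G).map q := by
        rw [← Sylow.coe_mapSurjective hq S]
        exact sSup_le fun N hN => by
          have := hN.1
          exact hN.2.le_sylow_of_normal _
      refine (comap_mono h1).trans ?_
      rw [comap_map_eq, QuotientGroup.ker_mk']
      exact sup_le hSBZ hcen
    exact normal_le_normalCore.2 hKle hmem
  obtain ⟨A, hA, hAL⟩ := hall
  have hBA : ¬ B ≤ A := fun hle => hAL (hnone A hA (hle.trans le_normalizer))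
  obtain ⟨A', hA', -, hBA', hnA'⟩ := h.repl B hBS hclass ⟨A, hA, hCZ.trans (hZA A hA), hBA⟩
  have hA'L : A' ≤ L := hnone A' hA' hnA'
  exfalso
  apply hBA'
  calc B = normalClosure ((B ⊓ Z : Subgroup G) : Set G) := hB1.symm
    _ ≤ _ := (closure_le _).2 fun x hx => ?_
  rw [Group.mem_conjugatesOfSet_iff] at hx
  obtain ⟨z, hz, hzx⟩ := hx
  obtain ⟨g, rfl⟩ := isConj_iff.1 hzx
  have hg : g ∈ (⊤ : Subgroup G) := mem_top g
  rw [← H35.sup_normalizer_sylow_inf S L, sup_comm] at hg
  obtain ⟨m, hm, l, hl, rfl⟩ := mem_sup_of_normal_right.1 hg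
  have h1 : l * z * l⁻¹ ∈ famInf 𝒜 ((S : Subgroup G) ⊓ L) :=
    mem_famInf.2 fun C hC hCS => mem_famInf.1 ((hLle hl z).1 hz).2 C hC (hCS.trans inf_le_left)
  have h2 := h.inv _ inf_le_left ⟨A', hA', le_inf (h.mem A' hA').1 hA'L⟩ m hm _ h1
  rw [show m * l * z * (m * l)⁻¹ = m * (l * z * l⁻¹) * m⁻¹ by group]
  exact mem_famInf.1 h2 A' hA' (le_inf (h.mem A' hA').1 hA'L)

/-- The criterion: a group of characteristic `p` in which the normalizer of the intersection of the family lies in
the Sylow subgroup is that Sylow subgroup. -/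
theorem AxFamily.top_le (hp2 : p ≠ 2) (n : ℕ) : ∀ (G : Type u) [Group G] [Finite G], Nat.card G = n →
    ∀ (T : Sylow p G) (𝒜 : Set (Subgroup G)), AxFamily (T : Subgroup G) 𝒜 →
      centralizer ((Cfsg.pCore p G : Subgroup G) : Set G) ≤ Cfsg.pCore p G →
      normalizer (famInf 𝒜 (T : Subgroup G) : Set G) ≤ (T : Subgroup G) → ⊤ ≤ (T : Subgroup G) := by
  induction n using Nat.strong_induction_on with
  | _ n ih =>
  intro G _ _ hn T 𝒜 h hc hN
  have hex : ∃ A ∈ 𝒜, A ≤ (T : Subgroup G) := by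
    obtain ⟨A, hA⟩ := h.nonempty
    exact ⟨A, hA, (h.mem A hA).1⟩
  set U := Cfsg.pCore p G with hU
  haveI hUn : U.Normal := H19.pCore_normal p G
  have hUp : IsPGroup p U := H19.pCore_isPGroup p
  have hUT : U ≤ T := H19.pCore_le_sylow T
  by_cases hUeq : U = (T : Subgroup G)
  · refine le_trans ?_ ((h.normalizer_le le_rfl hex).trans hN)
    rw [← hUeq, normalizer_eq_top_iff.2 hUn]
  have hproper : ∀ H : Subgroup G, (T : Subgroup G) ≤ H → H ≠ ⊤ → HasNormalPComplement p H := by
    intro H hTH hH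
    set 𝒜' : Set (Subgroup H) := {A | A.map H.subtype ∈ 𝒜} with h𝒜'
    set T' := T.subtype hTH with hT'
    have hmap : (T' : Subgroup H).map H.subtype = (T : Subgroup G) := by
      rw [hT', Sylow.coe_subtype, map_subgroupOf_eq_of_le hTH]
    have hle : ∀ {A : Subgroup H}, A.map H.subtype ≤ (T : Subgroup G) → A ≤ (T' : Subgroup H) := by
      intro A hA x hx
      exact hA ⟨x, hx, rfl⟩
    have hinf : ∀ (Q : Subgroup H) (x : H),
        x ∈ famInf 𝒜' Q ↔ (x : G) ∈ famInf 𝒜 (Q.map H.subtype) := by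
      intro Q x
      rw [mem_famInf, mem_famInf]
      constructor
      · intro hx A hA hAQ
        have hAH : A ≤ H := hAQ.trans (map_subtype_le _)
        refine hx (A.subgroupOf H) ?_ fun y hy => ?_
        · show (A.subgroupOf H).map H.subtype ∈ 𝒜
          rwa [map_subgroupOf_eq_of_le hAH]
        · obtain ⟨z, hz, hzy⟩ := hAQ hy
          exact (Subtype.ext hzy : z = y) ▸ hz
      · intro hx A hA hAQ
        obtain ⟨y, hy, hyx⟩ := hx _ hA (map_mono hAQ)
        exact (Subtype.ext hyx : y = x) ▸ hy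
    have h' : AxFamily (T' : Subgroup H) 𝒜' := by
      refine ⟨fun A hA => ⟨hle (h.mem _ hA).1, ⟨⟨fun a b => Subtype.ext (Subtype.ext
        (H35.commute_of_mem_isMulCommutative (h.mem _ hA).2 (mem_map_of_mem H.subtype a.2)
          (mem_map_of_mem H.subtype b.2)))⟩⟩⟩, ?_, ?_, ?_⟩
      · obtain ⟨A, hA, hAT⟩ := hex
        exact ⟨A.subgroupOf H, by rwa [h𝒜', Set.mem_ofPred_eq, map_subgroupOf_eq_of_le (hAT.trans hTH)]⟩
      · rintro Q hQ ⟨A, hA, hAQ⟩ g hg x hx
        rw [hinf] at hx ⊢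
        exact h.inv _ ((map_mono hQ).trans hmap.le) ⟨_, hA, map_mono hAQ⟩ _
          (le_normalizer_map _ (mem_map_of_mem H.subtype hg)) _ hx
      · rintro B hB hcl ⟨A, hA, h1, h2⟩
        obtain ⟨A', hA', h3, h4, h5⟩ := h.repl (B.map H.subtype) ((map_mono hB).trans hmap.le)
          (by rw [← map_commutator, ← map_commutator, hcl, Subgroup.map_bot])
          ⟨_, hA, by rw [← map_commutator]; exact map_mono h1,
            fun hle' => h2 ((map_le_map_iff_of_injective H.subtype_injective).1 hle')⟩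
        have hA'H : A' ≤ H := (h.mem A' hA').1.trans hTH
        refine ⟨A'.subgroupOf H, by rwa [h𝒜', Set.mem_ofPred_eq, map_subgroupOf_eq_of_le hA'H],
          fun x hx => h3 (by rw [← map_commutator]; exact mem_map_of_mem _ hx), fun hle' => h4 ?_, ?_⟩
        · exact (map_mono hle').trans (map_subgroupOf_eq_of_le hA'H).le
        · intro b hb
          have h6 := h5 (mem_map_of_mem H.subtype hb)
          refine mem_normalizer_iff.2 fun y => ?_
          exact mem_normalizer_iff.1 h6 (y : G)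
    haveI := H19.pCore_normal p H
    have hUH : U.subgroupOf H ≤ Cfsg.pCore p H := H19.le_pCore inferInstance hUp.comap_subtype
    have htop := ih _ (hn ▸ H19.card_lt_of_ne_top H hH) H rfl T' 𝒜' h' (fun x hx => hUH (hc
      (mem_centralizer_iff.2 fun u hu => congrArg Subtype.val
        (mem_centralizer_iff.1 hx ⟨u, (hUT.trans hTH) hu⟩ (hUH hu))))) fun g hg => ?_
    · have hHT : H = (T : Subgroup G) := le_antisymm (fun x hx => by
        have := htop (mem_top (⟨x, hx⟩ : H))
        rw [hT', Sylow.coe_subtype] at this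
        exact this) hTH
      refine ⟨T', ⊥, inferInstance, ?_⟩
      rw [eq_top_iff.2 htop]
      exact isComplement'_bot_top
    · show (g : G) ∈ (T : Subgroup G)
      refine hN (mem_normalizer_iff.2 fun x => ⟨fun hx => ?_, fun hx => ?_⟩)
      · have hxH : x ∈ H := hTH (h.famInf_le hx)
        have := (mem_normalizer_iff.1 hg ⟨x, hxH⟩).1 ((hinf _ _).2 (hmap.symm ▸ hx))
        exact hmap ▸ (hinf _ _).1 this
      · have hxH : x ∈ H := by
          have := H.mul_mem (H.mul_mem (inv_mem g.2) (hTH (h.famInf_le hx))) g.2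
          simpa [mul_assoc] using this
        have := (mem_normalizer_iff.1 hg ⟨x, hxH⟩).2 ((hinf _ _).2 (hmap.symm ▸ hx))
        exact hmap ▸ (hinf _ _).1 this
  have hcore : ∀ N : Subgroup G, N.Normal → ¬ p ∣ Nat.card N → N = ⊥ := by
    intro N hNn hNp
    have hd : U ⊓ N = ⊥ := H22.isPGroup_inf_eq_bot hUp N hNp
    refine eq_bot_iff.2 fun x hx => hd.le ⟨hc (mem_centralizer_iff.2 fun u hu => ?_), hx⟩
    exact (Subgroup.commute_of_normal_of_disjoint U N hUn hNn (disjoint_iff.2 hd) u x hu hx).eq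
  set P' : Sylow p (G ⧸ U) := T.mapSurjective (QuotientGroup.mk'_surjective U)
  have hP'ne : (P' : Subgroup (G ⧸ U)) ≠ ⊥ := by
    intro e
    refine hUeq (le_antisymm hUT fun x hx => ?_)
    have h1 : QuotientGroup.mk' U x ∈ (P' : Subgroup (G ⧸ U)) := mem_map_of_mem _ hx
    rw [e, mem_bot] at h1
    exact (QuotientGroup.eq_one_iff x).1 h1
  have hquot : HasNormalPComplement p (G ⧸ U) :=
    H35.glauberman_npc hp2 _ (G ⧸ U) rfl P'
      (H23.hasNormalPComplement_normalizer_quotient T U (H19.pCore_quotient_pCore p) hproper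
        (H35.centerThompsonAOf_ne_bot P'.2 hP'ne) (H35.centerThompsonAOf_le _)
        (le_normalizer.trans (H35.normalizer_le_normalizer_centerThompsonAOf _)))
  have hm := H23.minimalNPC_of T hcore U hU hUeq hproper hquot
  have hst : ∀ (V : Subgroup G) [V.Normal], IsPGroup p V → Cfsg.IsPStableOn p V :=
    fun V _ hV => hm.isPStableOn hp2 V hV
  have hZn := h.inf_normal T hst U hUp
  have hZU : famInf 𝒜 (T : Subgroup G) ≤ U := by
    intro z hz
    obtain ⟨A, hA, hAT⟩ := hex
    have hZA : famInf 𝒜 (T : Subgroup G) ≤ A := fun x hx => mem_famInf.1 hx A hA hAT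
    have hTZ : (T : Subgroup G) ≤ normalizer (famInf 𝒜 (T : Subgroup G) : Set G) :=
      le_normalizer.trans (h.normalizer_le le_rfl ⟨A, hA, hAT⟩)
    have hzZ : zpowers z ≤ famInf 𝒜 (T : Subgroup G) := zpowers_le.2 hz
    have hq : ⁅⁅U, zpowers z⁆, zpowers z⁆ = ⊥ := by
      have h1 : ⁅U, famInf 𝒜 (T : Subgroup G)⁆ ≤ famInf 𝒜 (T : Subgroup G) :=
        commutator_le.2 fun x hx y hy => by
          have := mul_mem ((hTZ (hUT hx) y).1 hy) (inv_mem hy)
          simpa [commutatorElement_def] using this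
      refine le_bot_iff.1 (le_trans (commutator_mono ((commutator_mono le_rfl hzZ).trans h1) hzZ) ?_)
      exact (commutator_eq_bot_iff_le_centralizer.2 fun x hx => mem_centralizer_iff.2 fun y hy =>
        H35.commute_of_mem_isMulCommutative (h.mem A hA).2 (hZA hy) (hZA hx)).le
    have hmem := hst U hUp z hq
    set q := QuotientGroup.mk' (centralizer (U : Set G)) with hqdef
    have hK : IsPGroup p ((Cfsg.pCore p (G ⧸ centralizer (U : Set G))).comap q) := by
      refine IsPGroup.comap_of_ker_isPGroup (H19.pCore_isPGroup p) q ?_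
      rw [hqdef, QuotientGroup.ker_mk']
      exact hUp.to_le hc
    exact H19.le_pCore ((H19.pCore_normal p _).comap q) hK hmem
  rw [inf_eq_right.2 hZU] at hZn
  refine le_trans ?_ hN
  rw [normalizer_eq_top_iff.2 hZn]

end Cfsg.Agent.H95
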